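import Cfsg.Agent.Solv.HallPi
import Cfsg.Agent.Solv.Misc1

/-!
# Subgroups of symmetric groups of `p'`-index
-/

set_option autoImplicit false

namespace Cfsg.Agent.HallSym

open Equiv Equiv.Perm Finset

variable {α : Type*} [Fintype α] [DecidableEq α] {H : Subgroup (Perm α)} {p : ℕ}

/-- `H` contains a copy of `Q ^ ι` whose factors act regularly on disjoint sets. -/
def Fam (H : Subgroup (Perm α)) (Q : Type) [Group Q] {ι : Type} (f : ι × Q ↪ α) : Prop :=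
  ∀ i t, ∃ g ∈ H, (∀ x, g (f (i, x)) = f (i, t * x)) ∧ ∀ y, (∀ x, f (i, x) ≠ y) → g y = y

theorem exists_fam (hp : p.Prime) (Q : Type) [Group Q] [Fintype Q] [DecidableEq Q] {e : ℕ}
    (hQ : Fintype.card Q = p ^ e) {L : Subgroup (Perm α)} (h : ¬ p ∣ H.relIndex L)
    (hL : ∀ g, ((∀ t : Q, sign (Equiv.mulLeft t) = 1) → sign g = 1) → g ∈ L) :
    ∃ f : Fin (Fintype.card α / p ^ e) × Q ↪ α, Fam H Q f ∧ #(univ.map f)ᶜ < p ^ e := by
  have := Fact.mk hp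
  let E : Fin (Fintype.card α / p ^ e) × Q ⊕ Fin (Fintype.card α % p ^ e) ≃ α :=
    Fintype.equivOfCardEq (by simp [hQ, Nat.div_add_mod'])
  let φ : (Fin (Fintype.card α / p ^ e) → Q) →* L := MonoidHom.mk' (fun t => ⟨E.permCongr
    (Perm.sumCongr (prodCongrRight fun i => Equiv.mulLeft (t i)) 1), hL _ fun h => by
      simp [sign_sumCongr, sign_prodCongrRight, h]⟩) fun t u => Subtype.ext (Equiv.ext fun x => by
        obtain ⟨x | x, rfl⟩ := E.surjective x <;> simp [prodCongrRight])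
  obtain ⟨k, hk⟩ := Solv.exists_le_conj_of_isPGroup_of_not_dvd_index (P := φ.range)
    ((IsPGroup.of_card (n := e * (Fintype.card α / p ^ e)) (by simp [hQ, pow_mul])).of_surjective _
      φ.rangeRestrict_surjective) h
  refine ⟨⟨fun x => k.1⁻¹ (E (.inl x)), fun x y e => by simpa using e⟩, fun i t =>
    ⟨(k⁻¹ * φ (Pi.mulSingle i t) * k : L), (Grp.mem_conj_smul_iff (G := L)).1 (hk ⟨_, rfl⟩),
      fun x => by simp [φ], fun y hy => ?_⟩, ?_⟩
  · obtain ⟨⟨j, x⟩ | x, rfl⟩ := (E.trans k.1⁻¹).surjective y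
    · simp [φ, Pi.mulSingle_eq_of_ne (show j ≠ i by rintro rfl; exact hy x rfl)]
    · simp [φ]
  · rw [card_compl, card_map, card_univ, Fintype.card_prod, Fintype.card_fin, hQ, mul_comm,
      ← Nat.mod_def]
    exact Nat.mod_lt _ (pow_pos hp.pos _)

omit [Fintype α] [DecidableEq α] in
theorem dvd_card_of_pow_apply {g : Perm α} {x : α} (hp : p.Prime) (hg : g ∈ H) (h1 : (g ^ p) x = x)
    (h2 : g x ≠ x) : p ∣ Nat.card H := by
  obtain h | h := (Nat.dvd_prime hp).1 ((MulAction.pow_smul_eq_iff_period_dvd (m := g) (a := x)).1 h1)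
  · exact absurd (MulAction.period_eq_one_iff.1 h) h2
  · exact h ▸ (MulAction.period_dvd_orderOf g x).trans (H.orderOf_dvd_natCard hg)

omit [Fintype α] [DecidableEq α] in
theorem apply_mem {g : Perm α} {T : Finset α} (h : ∀ z ∉ T, g z = z) {x : α} (hx : x ∈ T) : g x ∈ T :=
  by_contra fun e => e ((g.injective (h _ e)).symm ▸ hx)

omit [Fintype α] [DecidableEq α] in
theorem pow_apply_mem {g : Perm α} {T : Finset α} (h : ∀ z ∈ T, g z ∈ T) {x : α} (hx : x ∈ T) (i : ℕ) :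
    (g ^ i) x ∈ T := by
  induction i with
  | zero => exact hx
  | succ i ih => rw [pow_succ']; exact h _ ih

/-- `T` is the support of a cycle of prime order in `H`. -/
def Cyc (H : Subgroup (Perm α)) (T : Finset α) : Prop :=
  ∀ x ∈ T, ∀ y ∈ T, x ≠ y → ∃ g ∈ H, g x = y ∧ (∀ z ∉ T, g z = z) ∧
    ∀ z ∈ T, ∀ w ∈ T, ∃ i : ℕ, (g ^ i) z = w

theorem exists_cyc (hp : p.Prime) (h : ¬ p ∣ H.index) :
    ∃ ρ : Finset α, #ρ < p ∧ ∀ x ∉ ρ, ∃ T, x ∈ T ∧ #T = p ∧ Cyc H T := by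
  have := Fact.mk hp
  obtain ⟨f, h1, h2⟩ := exists_fam hp (Multiplicative (ZMod p)) (e := 1) (L := ⊤) (by simp)
    (by simpa using h) fun _ _ => trivial
  refine ⟨_, h2.trans_eq (pow_one p), fun x hx => ?_⟩
  obtain ⟨⟨i, a⟩, -, rfl⟩ := mem_map.1 (notMem_compl.1 hx)
  refine ⟨univ.image fun x => f (i, x), by simp, by
    rw [card_image_of_injective _ fun x y e => by simpa using e]; simp, ?_⟩
  simp only [Cyc, mem_image, mem_univ, true_and, not_exists]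
  rintro _ ⟨x, rfl⟩ _ ⟨y, rfl⟩ hxy
  obtain ⟨g, hg, h3, h4⟩ := h1 i (y * x⁻¹)
  refine ⟨g, hg, by simp [h3], h4, ?_⟩
  rintro _ ⟨z, rfl⟩ _ ⟨w, rfl⟩
  obtain ⟨k, hk⟩ := mem_powers_of_prime_card (p := p) (g := y * x⁻¹) (g' := w * z⁻¹) (by simp)
    fun e => hxy (by rw [mul_inv_eq_one.1 e])
  have : ∀ k : ℕ, (g ^ k) (f (i, z)) = f (i, (y * x⁻¹) ^ k * z) := fun k => by
    induction k with
    | zero => simp
    | succ k ih => rw [pow_succ', Perm.mul_apply, ih, h3, pow_succ' (y * x⁻¹), mul_assoc _ _ z]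
  exact ⟨k, by rw [this, show _ ^ k = _ from hk, inv_mul_cancel_right]⟩

omit [Fintype α] in
theorem Cyc.map {T : Finset α} (h : Cyc H T) {k : Perm α} (hk : k ∈ H) : Cyc H (T.image k) := by
  simp only [Cyc, mem_image, not_exists, not_and]
  rintro _ ⟨x, hx, rfl⟩ _ ⟨y, hy, rfl⟩ hxy
  obtain ⟨g, hg, h1, h2, h3⟩ := h x hx y hy fun e => hxy (by rw [e])
  refine ⟨k * g * k⁻¹, H.mul_mem (H.mul_mem hk hg) (H.inv_mem hk), by simp [h1], fun z hz => ?_, ?_⟩
  · simp [h2 (k.symm z) fun e => hz _ e (by simp)]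
  · rintro _ ⟨z, hz, rfl⟩ _ ⟨w, hw, rfl⟩
    exact (h3 z hz w hw).imp fun i hi => by simp [hi]

omit [Fintype α] [DecidableEq α] in
theorem Cyc.not_block {S T : Finset α} (h : Cyc H S) (h1 : 1 < #T) (h2 : #T < #S) {x : α} (hx : x ∈ T)
    (hx' : x ∈ S) : ∃ g ∈ H, ∃ a ∈ T, g a ∈ T ∧ ∃ b ∈ T, g b ∉ T := by
  by_contra! hT
  have key : ∀ y ∈ S, x ≠ y → ∀ a ∈ T, a ∈ S ∧ y ∉ T := fun y hy hxy a ha => by
    obtain ⟨g, hg, rfl, h3, h4⟩ := h x hx' y hy hxy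
    have : ∀ a ∈ T, g a ∉ T := fun a ha e => h2.not_ge (card_le_card fun w hw => by
      obtain ⟨i, rfl⟩ := h4 x hx' w hw
      exact pow_apply_mem (hT g hg a ha e) hx i)
    exact ⟨by_contra fun e => this a ha ((h3 a e).symm ▸ ha), this x hx⟩
  obtain ⟨y, hy, hxy⟩ := exists_mem_ne (h1.trans h2) x
  obtain ⟨z, hz, hxz⟩ := exists_mem_ne h1 x
  exact (key z (key y hy hxy.symm z hz).1 hxz.symm x hx).2 hz

omit [Fintype α] in
theorem Cyc.two_dvd {T T' : Finset α} (h : Cyc H T) (h' : Cyc H T') (hc : #T = #T') {a : α}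
    (ha : a ∈ T) (ha' : a ∈ T') (hne : T ≠ T') : 2 ∣ Nat.card H := by
  induction hN : #(T ∪ T') using Nat.strong_induction_on generalizing T T' a with | _ N ih => ?_
  obtain ⟨c, hc1, hc2⟩ := not_subset.1 fun e => hne (eq_of_subset_of_card_le e hc.ge)
  obtain ⟨e, he1, he2⟩ := not_subset.1 fun e => hne (eq_of_subset_of_card_le e hc.le).symm
  by_cases h1 : 1 < #(T \ T')
  · obtain ⟨y, hy, hyc⟩ := exists_mem_ne h1 c
    obtain ⟨g, hg, rfl, h2, h3⟩ := h c hc1 y (mem_sdiff.1 hy).1 hyc.symm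
    refine ih _ ?_ h' (h'.map hg) (card_image_of_injective _ g.injective).symm he1
      (mem_image.2 ⟨e, he1, h2 e he2⟩) (fun e => hc2 ?_) rfl
    swap
    · obtain ⟨i, rfl⟩ := h3 a ha c hc1
      exact pow_apply_mem (fun z hz => e ▸ mem_image_of_mem _ hz) ha' i
    refine hN ▸ card_lt_card ⟨union_subset subset_union_right fun z hz => ?_, fun e => ?_⟩
    · obtain ⟨z, hz', rfl⟩ := mem_image.1 hz
      by_cases e : z ∈ T
      exacts [mem_union_left _ (apply_mem h2 e), mem_union_right _ ((h2 z e).symm ▸ hz')]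
    · simpa [mem_sdiff.1 hy, hc2] using e (mem_union_left _ (mem_sdiff.1 hy).1)
  obtain ⟨u, hu, rfl, u1, -⟩ := h c hc1 a ha fun e => hc2 (e ▸ ha')
  obtain ⟨v, hv, v0, v1, -⟩ := h' _ ha' e he1 fun k => he2 (k ▸ ha)
  obtain ⟨w, hw, w0, w1, -⟩ := h (v e) (by_contra fun k => he2 (by
    rw [card_sdiff_comm hc, not_lt, card_le_one] at h1
    exact v.injective ((h1 _ (mem_sdiff.2 ⟨apply_mem v1 he1, k⟩) _ (mem_sdiff.2 ⟨he1, he2⟩)).trans
      v0.symm) ▸ ha)) c hc1 fun k => hc2 (k ▸ apply_mem v1 he1)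
  exact dvd_card_of_pow_apply (x := c) Nat.prime_two (H.mul_mem hw (H.mul_mem hv hu))
    (by simp [sq, v0, w0, w1 e he2, u1 e he2]) (by simpa [v0, w1 e he2] using fun k : e = c => he2 (k ▸ hc1))

theorem two_dvd_card {q : ℕ} (hp : p.Prime) (hq : q.Prime) (hpq : p < q) (hn : q ≤ Fintype.card α)
    (h1 : ¬ p ∣ H.index) (h2 : ¬ q ∣ H.index) : 2 ∣ Nat.card H := by
  obtain ⟨ρ, k1, k2⟩ := exists_cyc hp h1
  obtain ⟨ρ', k3, k4⟩ := exists_cyc hq h2
  obtain ⟨x, -, hx⟩ := exists_mem_notMem_of_card_lt_card (k3.trans_le hn)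
  obtain ⟨S, -, rfl, hS⟩ := k4 x hx
  obtain ⟨y, hy, hy'⟩ := exists_mem_notMem_of_card_lt_card (k1.trans hpq)
  obtain ⟨T, hyT, rfl, hT⟩ := k2 y hy'
  obtain ⟨g, hg, a, ha, ha', b, hb, hb'⟩ := hS.not_block hp.one_lt hpq hyT hy
  exact hT.two_dvd (hT.map hg) (card_image_of_injective _ g.injective).symm ha'
    (mem_image_of_mem _ ha) fun e => hb' (e ▸ mem_image_of_mem _ hb)

theorem three_dvd_card {q : ℕ} (hq : q.Prime) (h5 : 4 < q) (hn : q ≤ Fintype.card α)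
    (h1 : ¬ 2 ∣ H.relIndex (alternatingGroup α)) (h2 : ¬ q ∣ H.index) : 3 ∣ Nat.card H := by
  obtain ⟨f, k1, k2⟩ := exists_fam Nat.prime_two (Multiplicative (ZMod 2 × ZMod 2)) (e := 2) rfl h1
    fun _ h => h (by decide)
  obtain ⟨ρ', k3, k4⟩ := exists_cyc hq h2
  obtain ⟨x, -, hx⟩ := exists_mem_notMem_of_card_lt_card (k3.trans_le hn)
  obtain ⟨S, -, rfl, hS⟩ := k4 x hx
  obtain ⟨y, hy, hy'⟩ := exists_mem_notMem_of_card_lt_card (k2.trans h5)
  obtain ⟨⟨i, y⟩, -, rfl⟩ := mem_map.1 (notMem_compl.1 hy')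
  have hT : #(univ.image fun x => f (i, x)) = 4 := by
    rw [card_image_of_injective _ fun x y e => by simpa using e]; rfl
  have key : ∀ a ∈ univ.image fun x => f (i, x), ∀ b ∈ univ.image fun x => f (i, x), ∃ g ∈ H,
      g a = b ∧ g b = a ∧ ∀ z ∉ univ.image fun x => f (i, x), g z = z := by
    simp only [mem_image, mem_univ, true_and, not_exists]
    rintro _ ⟨a, rfl⟩ _ ⟨b, rfl⟩
    obtain ⟨g, hg, h3, h4⟩ := k1 i (a * b)
    have : ∀ a b : Multiplicative (ZMod 2 × ZMod 2), a * b * a = b ∧ a * b * b = a := by decide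
    exact ⟨g, hg, by rw [h3, (this a b).1], by rw [h3, (this a b).2], h4⟩
  obtain ⟨g, hg, a, ha, ha', b, hb, hb'⟩ := hS.not_block (hT ▸ by omega) (hT ▸ h5) (by simp) hy
  generalize (univ.image fun x => f (i, x)) = T at *
  obtain ⟨c, hc, hc'⟩ := not_subset.1 fun e : T ⊆ T.image g => hb' (eq_of_subset_of_card_le e
    (card_image_le) ▸ mem_image_of_mem _ hb)
  obtain ⟨u, hu, u1, u2, u3⟩ := key _ ha' c hc
  obtain ⟨v, hv, v1, v2, v3⟩ := key a ha b hb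
  have v4 := v3 (g.symm c) fun e => hc' (mem_image.2 ⟨_, e, by simp⟩)
  exact dvd_card_of_pow_apply (x := c) Nat.prime_three
    (H.mul_mem (H.mul_mem (H.mul_mem hg hv) (H.inv_mem hg)) hu)
    (by simp [pow_succ', u1, u2, u3 _ hb', v1, v2, v4])
    (by simpa [u2, v1] using fun e : g b = c => hb' (e ▸ hc))

end Cfsg.Agent.HallSym
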